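import Cfsg.Agent.H338.RG.K1Norm
import Cfsg.Agent.H461.E2.Fix

/-!
# S3509, `E₆`, `²E₆`: a representative centralising `Xo b` fixes the highest root `b` (helper194, box D3)

* `rep_fix_b` : `g` a representative of `w ∈ PP t`, fixed by `α`, commuting with `Xo D l α θ b`: `w b = b`.
-/

set_option autoImplicit false
set_option linter.unusedSectionVars false

namespace Cfsg.Agent.H194.RG

open CoxeterSystem Cfsg Cfsg.Lie Cfsg.Lie.ChevalleyDatum
open Cfsg.Agent.ChevalleyStructure Cfsg.Agent.ChevalleyStructure.Elts Cfsg.Agent.ChevalleyStructure.CoxeterGeom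
  Cfsg.Agent.ChevalleyStructure.CoxeterGeomTypes Cfsg.Agent.ChevalleyStructure.NPerm
open Cfsg.Agent.Tits.Roots Cfsg.Agent.Tits.Core Cfsg.Agent.Nodes Cfsg.Agent.Nodes.Reps Cfsg.Agent.Nodes.BNOf
  Cfsg.Agent.Nodes.RGDChev Cfsg.Agent.Nodes.Bruhat Cfsg.Agent.Nodes.NormalForm Cfsg.Agent.Nodes.Coroot
open Cfsg.Agent.KFacts.RgdField Cfsg.Agent.KFacts.RgdChevCoord Cfsg.Agent.KFacts.RgdSL
open Cfsg.Agent.BpExc Cfsg.Agent.BpExc.TorCent Cfsg.Agent.BpExc.TorChev Cfsg.Agent.BpExc.Tow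
  Cfsg.Agent.BpExc.TowChev Cfsg.Agent.BpExc.Fr Cfsg.Agent.BpExc.Pair Cfsg.Agent.BpExc.LangFr Cfsg.Agent.GpExc.Field
  Cfsg.Agent.BpExc.NInst Cfsg.Agent.BpExc.NChev
open Cfsg.Agent.H469.Exc Cfsg.Agent.H316.U6 Cfsg.Agent.H28.RG Cfsg.Agent.H169.RG
open Cfsg.Agent.H441.RG hiding KT
open Cfsg.Agent.H398.RG (MK Cond Base conj_MK MK_le le_MK)
open Cfsg.Agent.H338.RG Cfsg.Agent.H461.E2.Fix Cfsg.Agent.H461.E2.Sup

universe u v

section Conc

variable {D : ChevalleyDatum} {l : ℕ} {M : CoxeterMatrix (Fin l)} {hp : IsType D l M} {r : ℕ} [hr : Fact r.Prime]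
  {e : ℕ} {α : MulAut ↥(D.group (KK r))} {θ : (Fin l → ℤ) ≃+ (Fin l → ℤ)} {t : ↥(D.group (KK r))}
  {b c d u v : Fin l → ℤ} [Finite M.Group]

/-- a root group commutes with the other root groups of the orbit -/
theorem cm_orb (hs : SL M.toCoxeterSystem hp.isCartan) (H : O3 M.toCoxeterSystem hp.isCartan θ b) :
    Cm (XX D l (KK r) b) (RGD.Sup (XX D l (KK r)) (orb θ b \ {b})) := by
  intro x hx y hy
  have h1 : RGD.Sup (XX D l (KK r)) (orb θ b \ {b}) ≤ Subgroup.centralizer {x} := by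
    refine RGD.Sup_le fun a ha z hz => Subgroup.mem_centralizer_singleton_iff.2 ?_
    have h0 : cpr M.toCoxeterSystem hp.isCartan a b = 0 := H.orth hs ha.1 (Or.inl rfl) ha.2
    exact cm_XX (hp := hp) hs (H.rts a ha.1) H.rt h0.ge z hz x hx
  exact (Subgroup.mem_centralizer_singleton_iff.1 (h1 hy)).symm

/-- **uniqueness of the component** -/
theorem comp_unique (hs : SL M.toCoxeterSystem hp.isCartan) (H : O3 M.toCoxeterSystem hp.isCartan θ b)
    (F : Fr M.toCoxeterSystem hp.isCartan (TT D (KK r)) (XX D l (KK r)) α θ)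
    (hP : orb θ b ⊆ RGD.Pos M.toCoxeterSystem hp.isCartan) {x x' s s' : ↥(D.group (KK r))}
    (hx : x ∈ XX D l (KK r) b) (hx' : x' ∈ XX D l (KK r) b) (h1 : s ∈ RGD.Sup (XX D l (KK r)) (orb θ b \ {b}))
    (h1' : s' ∈ RGD.Sup (XX D l (KK r)) (orb θ b \ {b})) (h : x * s = x' * s') : x = x' := by
  obtain ⟨N, hN, hNg⟩ := exists_period F
  have hit : ∀ a ∈ orb θ b, ∀ i, θ^[i] a ∈ orb θ b := by
    intro a ha i
    induction i with
    | zero => exact ha
    | succ i ih => rw [Function.iterate_succ_apply']; exact H.stab _ ih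
  have hφ : ∀ a ∈ orb θ b, 0 < fhHom θ N a := by
    intro a ha
    rw [fhHom_apply]
    refine Finset.sum_pos (fun i _ => ?_) ⟨0, Finset.mem_range.2 hN⟩
    have := hP (hit a ha i)
    exact RGD.ht_pos this.1 this.2
  have e1 : fhHom θ N (θ b) = fhHom θ N b := by
    rw [fhHom_apply, fhHom_apply]
    exact fh_g (hNg _ H.rt)
  have e2 : fhHom θ N (θ (θ b)) = fhHom θ N b := by
    rw [← e1, fhHom_apply, fhHom_apply]
    exact fh_g (hNg _ H.r1)
  have hm : ∀ a ∈ orb θ b, fhHom θ N b ≤ fhHom θ N a := by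
    rintro a (rfl | rfl | rfl)
    · exact le_rfl
    · exact e1.ge
    · exact e2.ge
  have h2 : x'⁻¹ * x ∈ XX D l (KK r) b ⊓ RGD.Sup (XX D l (KK r)) (orb θ b \ {b}) := by
    refine ⟨Subgroup.mul_mem _ (Subgroup.inv_mem _ hx') hx, ?_⟩
    have e3 : x'⁻¹ * x = s' * s⁻¹ := by
      rw [inv_mul_eq_iff_eq_mul, ← mul_assoc, ← h, mul_inv_cancel_right]
    rw [e3]
    exact Subgroup.mul_mem _ h1' (Subgroup.inv_mem _ h1)
  rw [H461.E2.Fix.inf_eq_bot hp M.toCoxeterSystem (locFin r) r hP (H.zcl hs) hφ (Or.inl rfl) hm] at h2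
  exact (inv_mul_eq_one.1 (Subgroup.mem_bot.1 h2)).symm

theorem zcl_single (hb : IsRoot M.toCoxeterSystem hp.isCartan b) : ZCl M.toCoxeterSystem hp.isCartan ({b} : Set (Fin l → ℤ)) := by
  rintro y hy z hz w hw ⟨i, j, hi, hj, rfl⟩
  rw [Set.mem_singleton_iff] at hy hz
  subst hy hz
  exfalso
  have h6 : i • z + j • z = ((i : ℤ) + j) • z := by
    rw [add_smul, natCast_zsmul, natCast_zsmul]
  have := isUnit_of_smul _ hp.isCartan hw _ h6
  rw [Int.isUnit_iff] at this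
  omega

theorem mem_Sup_single {x : ↥(D.group (KK r))} :
    x ∈ RGD.Sup (XX D l (KK r)) {b} ↔ x ∈ XX D l (KK r) b := by
  constructor
  · intro h
    have h1 : RGD.Sup (XX D l (KK r)) {b} ≤ XX D l (KK r) b := RGD.Sup_le (by
      rintro a rfl
      exact le_rfl)
    exact h1 h
  · exact fun h => RGD.le_Sup (S := ({b} : Set (Fin l → ℤ))) rfl h

/-- the fixed points in a root group -/
theorem card_fix_single {τ : MulAut ↥(D.group (KK r))} {g : (Fin l → ℤ) ≃+ (Fin l → ℤ)} {e : ℕ} (he : 0 < e)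
    (hτ : IsFrob r e τ) (F : Fr M.toCoxeterSystem hp.isCartan (TT D (KK r)) (XX D l (KK r)) τ g)
    (hb : b ∈ RGD.Pos M.toCoxeterSystem hp.isCartan) (hg : g b = b) :
    Nat.card ↥(RGD.Sup (XX D l (KK r)) {b} ⊓ fixedSubgroup τ) = r ^ e := by
  have h1 := card_fix (hp := hp) (cs := M.toCoxeterSystem) (locFin r) r he hτ F (Ψ := {b})
    (by rintro a rfl; exact hb) (zcl_single (hp := hp) hb.1) (by rintro a rfl; exact hg)
  rw [h1, Set.ncard_singleton, pow_one]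

/-- the comparison of the numbers of fixed points -/
theorem no_cmp {τ τ' : MulAut ↥(D.group (KK r))} {g g' : (Fin l → ℤ) ≃+ (Fin l → ℤ)} {e e' : ℕ} (he : 0 < e)
    (hτ : IsFrob r e τ) (F : Fr M.toCoxeterSystem hp.isCartan (TT D (KK r)) (XX D l (KK r)) τ g)
    (he' : 0 < e') (hτ' : IsFrob r e' τ') (F' : Fr M.toCoxeterSystem hp.isCartan (TT D (KK r)) (XX D l (KK r)) τ' g')
    (hb : b ∈ RGD.Pos M.toCoxeterSystem hp.isCartan) (hg : g b = b) (hg' : g' b = b) (hlt : e' < e)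
    (H : ∀ x ∈ XX D l (KK r) b, τ x = x → τ' x = x) : False := by
  have h1 := card_fix_single (hp := hp) he hτ F hb hg
  have h2 := card_fix_single (hp := hp) he' hτ' F' hb hg'
  have hr0 : 1 < r := hr.out.one_lt
  have hfin : Finite ↥(RGD.Sup (XX D l (KK r)) {b} ⊓ fixedSubgroup τ') :=
    Nat.finite_of_card_ne_zero (by rw [h2]; positivity)
  have hle : RGD.Sup (XX D l (KK r)) {b} ⊓ fixedSubgroup τ ≤ RGD.Sup (XX D l (KK r)) {b} ⊓ fixedSubgroup τ' :=
    fun x hx => ⟨hx.1, H x (mem_Sup_single.1 hx.1) hx.2⟩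
  have h3 := Nat.card_le_card_of_injective _ (Subgroup.inclusion_injective hle)
  rw [h1, h2] at h3
  exact absurd (Nat.pow_lt_pow_right hr0 hlt) (not_lt.2 h3)

variable (Δ : Wk.DFr hp M.toCoxeterSystem r e α θ t) (hs : SL M.toCoxeterSystem hp.isCartan)
  (hT : Tri M.toCoxeterSystem hp.isCartan (Sx M.toCoxeterSystem hp.isCartan (ch hp) t) θ b c d u v)

include Δ hs hT

/-- **A representative centralising `Xo b` fixes `b`.** -/
theorem rep_fix_b {w : M.Group} {g : ↥(D.group (KK r))} (hα : α g = g)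
    (hy : Rp M.toCoxeterSystem (nsysTT hp M.toCoxeterSystem (locFin r) r) w g)
    (hw : w ∈ PP M.toCoxeterSystem hp.isCartan (ch hp) t) (hc : ∀ x ∈ Xo D l α θ b, g * x = x * g) :
    rep M.toCoxeterSystem hp.isCartan w b = b := by
  have H := hT.o3
  have hP : orb θ b ⊆ RGD.Pos M.toCoxeterSystem hp.isCartan := fun a ha =>
    ⟨(hT.orbS ha).1.1, (hT.orbS ha).2⟩
  have hbP : b ∈ RGD.Pos M.toCoxeterSystem hp.isCartan := hP (Or.inl rfl)
  have n1 : θ b ≠ b := (ne_of_orth H.r1 H.o1.le).symm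
  have n2 : θ (θ b) ≠ b := (ne_of_orth H.r2 H.o2.le).symm
  have hFα := Δ.fr
  have hFr := fr_rp hy
  have hth := rep_theta Δ hy hα
  -- the root groups
  have m1 : ∀ {a : Fin l → ℤ} {x : ↥(D.group (KK r))}, IsRoot M.toCoxeterSystem hp.isCartan a →
      x ∈ XX D l (KK r) a → α x ∈ XX D l (KK r) (θ a) := fun ha hx => (hFα.map _ ha _).2 hx
  have m2 : ∀ {a : Fin l → ℤ} {x : ↥(D.group (KK r))}, IsRoot M.toCoxeterSystem hp.isCartan a →
      x ∈ XX D l (KK r) a → g * x * g⁻¹ ∈ XX D l (KK r) (rep M.toCoxeterSystem hp.isCartan w a) :=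
    fun ha hx => (hFr.map _ ha _).2 hx
  have hcm := cm_orb (r := r) (hp := hp) hs H
  -- the fixed points of `α ^ 3`
  have F3 := hFα.mul (hFα.mul hFα)
  have I3 := Δ.frob.mul (Δ.frob.mul Δ.frob)
  have key : ∀ x ∈ XX D l (KK r) b, (α * (α * α)) x = x →
      (g * x * g⁻¹) * (g * α x * g⁻¹) * (g * α (α x) * g⁻¹) = x * (α x * α (α x)) := by
    intro x hx h3
    have h3 : α (α (α x)) = x := h3
    have x1 := m1 H.rt hx
    have x2 := m1 H.r1 x1
    have hz : x * α x * α (α x) ∈ Xo D l α θ b := by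
      refine ⟨mul_mem (mul_mem (RGD.le_Sup (Or.inl rfl) hx) (RGD.le_Sup (Or.inr (Or.inl rfl)) x1))
        (RGD.le_Sup (Or.inr (Or.inr rfl)) x2), ?_⟩
      change α (x * α x * α (α x)) = x * α x * α (α x)
      rw [map_mul, map_mul, h3]
      have h4 : α x * α (α x) ∈ RGD.Sup (XX D l (KK r)) (orb θ b \ {b}) :=
        mul_mem (RGD.le_Sup (S := orb θ b \ {b}) ⟨Or.inr (Or.inl rfl), n1⟩ x1)
          (RGD.le_Sup (S := orb θ b \ {b}) ⟨Or.inr (Or.inr rfl), n2⟩ x2)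
      rw [← hcm x hx _ h4, mul_assoc]
    have h5 := hc _ hz
    have e1 : (g * x * g⁻¹) * (g * α x * g⁻¹) * (g * α (α x) * g⁻¹) = g * (x * α x * α (α x)) * g⁻¹ := by group
    rw [e1, h5, mul_inv_cancel_right, mul_assoc]
  have s12 : ∀ x ∈ XX D l (KK r) b, α x * α (α x) ∈ RGD.Sup (XX D l (KK r)) (orb θ b \ {b}) := by
    intro x hx
    have x1 := m1 H.rt hx
    have x2 := m1 H.r1 x1
    exact mul_mem (RGD.le_Sup (S := orb θ b \ {b}) ⟨Or.inr (Or.inl rfl), n1⟩ x1)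
          (RGD.le_Sup (S := orb θ b \ {b}) ⟨Or.inr (Or.inr rfl), n2⟩ x2)
  rcases rep_b hs hT hw with h | h | h
  · exact h
  · -- `w b = θ b`
    exfalso
    have F' := hFr.mul (hFα.mul hFα)
    have I' := (IsFrob.conj (p := r) g).mul (Δ.frob.mul Δ.frob)
    refine no_cmp (hp := hp) (by have := Δ.he; omega) I3 F3 (by have := Δ.he; omega) I' F' hbP H.per ?_
      (by have := Δ.he; omega) ?_
    · change rep M.toCoxeterSystem hp.isCartan w (θ (θ b)) = b
      rw [← hth, ← hth, h, H.per]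
    · intro x hx h3
      change g * α (α x) * g⁻¹ = x
      have x1 := m1 H.rt hx
      have x2 := m1 H.r1 x1
      have y0 := m2 H.rt hx
      have y1 := m2 H.r1 x1
      have y2 := m2 H.r2 x2
      rw [h] at y0
      rw [← hth, h] at y1
      rw [← hth, ← hth, h, H.per] at y2
      have s0 : (g * x * g⁻¹) * (g * α x * g⁻¹) ∈ RGD.Sup (XX D l (KK r)) (orb θ b \ {b}) :=
        mul_mem (RGD.le_Sup (S := orb θ b \ {b}) ⟨Or.inr (Or.inl rfl), n1⟩ y0)
          (RGD.le_Sup (S := orb θ b \ {b}) ⟨Or.inr (Or.inr rfl), n2⟩ y1)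
      refine comp_unique (hp := hp) hs H hFα hP y2 hx s0 (s12 x hx) ?_
      rw [hcm _ y2 _ s0]
      exact key x hx h3
  · -- `w b = θ (θ b)`
    exfalso
    have F' := hFr.mul hFα
    have I' := (IsFrob.conj (p := r) g).mul Δ.frob
    refine no_cmp (hp := hp) (by have := Δ.he; omega) I3 F3 (by have := Δ.he; omega) I' F' hbP H.per ?_
      (by have := Δ.he; omega) ?_
    · change rep M.toCoxeterSystem hp.isCartan w (θ b) = b
      rw [← hth, h, H.per]
    · intro x hx h3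
      change g * α x * g⁻¹ = x
      have x1 := m1 H.rt hx
      have x2 := m1 H.r1 x1
      have y0 := m2 H.rt hx
      have y1 := m2 H.r1 x1
      have y2 := m2 H.r2 x2
      rw [h] at y0
      rw [← hth, h, H.per] at y1
      rw [← hth, ← hth, h, H.per] at y2
      have z0 : (g * x * g⁻¹) ∈ RGD.Sup (XX D l (KK r)) (orb θ b \ {b}) :=
        RGD.le_Sup (S := orb θ b \ {b}) ⟨Or.inr (Or.inr rfl), n2⟩ y0
      have s0 : (g * x * g⁻¹) * (g * α (α x) * g⁻¹) ∈ RGD.Sup (XX D l (KK r)) (orb θ b \ {b}) :=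
        mul_mem z0 (RGD.le_Sup (S := orb θ b \ {b}) ⟨Or.inr (Or.inl rfl), n1⟩ y2)
      refine comp_unique (hp := hp) hs H hFα hP y1 hx s0 (s12 x hx) ?_
      rw [← key x hx h3, ← mul_assoc, hcm _ y1 _ z0]

end Conc

end Cfsg.Agent.H194.RG
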