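import Cfsg.Agent.H338.RG.Tri

/-!
# S3509, `E₆`, `²E₆`: three orthogonal subsystems `A₂` permuted by an automorphism (helper194)

* `iso` : an automorphism of a simply laced root system preserves the Cartan numbers;
* `Dat cs h S b c d u v` : `S` of type `A₂ A₂ A₂` with the roots `b i = c i + d i = u i + v i`;
* `Dat.tri` : the structure `Tri` of helper338 for an automorphism without a fixed highest root.
-/

set_option autoImplicit false
set_option linter.unusedSectionVars false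

namespace Cfsg.Agent.H194.RG

open CoxeterSystem Cfsg.Agent.ChevalleyStructure.CoxeterGeom Cfsg.Agent.Tits.Roots Cfsg.Agent.Tits.Core
  Cfsg.Agent.Nodes.Reps Cfsg.Agent.Nodes.Coroot Cfsg.Agent.KFacts.RgdSL

variable {I W : Type*} [Fintype I] [DecidableEq I] [Group W] [Finite W] {M : CoxeterMatrix I}
  {cs : CoxeterSystem M W} {A : I → I → ℤ} {h : IsCartan M A}

section

variable (hs : SL cs h) {θ : (I → ℤ) ≃+ (I → ℤ)} (hroot : ∀ a, IsRoot cs h (θ a) ↔ IsRoot cs h a)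

include hs in
theorem sub_iff {x y : I → ℤ} (hx : IsRoot cs h x) (hy : IsRoot cs h y) (hxy : x ≠ y) :
    IsRoot cs h (x - y) ↔ cpr cs h x y = 1 := by
  refine ⟨fun hr => ?_, isRoot_sub hx hy⟩
  have e1 : cpr cs h (x - y) x = 2 - cpr cs h x y := by
    rw [sub_eq_add_neg, cpr_add cs h _ _ hx, cpr_self cs h hx, cpr_neg_left _ hx, hs y x hy hx]; ring
  rcases hs.cases hr hx with h1 | h1 | h1
  · exact absurd (sub_eq_self.1 h1.1) hy.ne_zero
  · have h2 : y = (2 : ℤ) • x := by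
      have : y = x - (x - y) := by abel
      rw [this, h1.1]; module
    have := isUnit_of_smul cs h hy 2 h2
    rw [Int.isUnit_iff] at this
    omega
  · rcases hs.cases hx hy with h2 | h2 | h2
    · exact absurd h2.1 hxy
    · omega
    · omega

include hs in
theorem add_iff {x y : I → ℤ} (hx : IsRoot cs h x) (hy : IsRoot cs h y) (hxy : x ≠ -y) :
    IsRoot cs h (x + y) ↔ cpr cs h x y = -1 := by
  have := sub_iff hs hx hy.neg hxy
  rw [sub_neg_eq_add, cpr_neg_right cs h x hy] at this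
  rw [this]
  constructor <;> intro h1 <;> omega

include hs hroot in
/-- an automorphism of a simply laced root system preserves the Cartan numbers -/
theorem iso {a b : I → ℤ} (hra : IsRoot cs h a) (hrb : IsRoot cs h b) : cpr cs h (θ a) (θ b) = cpr cs h a b := by
  have hra' := (hroot a).2 hra
  have hrb' := (hroot b).2 hrb
  rcases hs.cases hra hrb with h1 | h1 | ⟨h1, h2, h3, h4⟩
  · rw [h1.1, cpr_self cs h hrb', cpr_self cs h hrb]
  · rw [h1.1, map_neg, cpr_neg_left _ hrb', cpr_neg_left _ hrb, cpr_self cs h hrb', cpr_self cs h hrb]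
  · have g1 : θ a ≠ θ b := fun h => h1 (θ.injective h)
    have g2 : θ a ≠ -θ b := fun h => h2 (θ.injective (by rw [h, map_neg]))
    rcases hs.cases hra' hrb' with h5 | h5 | ⟨-, -, h5, h6⟩
    · exact absurd h5.1 g1
    · exact absurd h5.1 g2
    · have m1 := (sub_iff hs hra' hrb' g1).symm.trans ((by rw [← map_sub]; exact hroot _ : IsRoot cs h (θ a - θ b) ↔
        IsRoot cs h (a - b)).trans (sub_iff hs hra hrb h1))
      have m2 := (add_iff hs hra' hrb' g2).symm.trans ((by rw [← map_add]; exact hroot _ : IsRoot cs h (θ a + θ b) ↔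
        IsRoot cs h (a + b)).trans (add_iff hs hra hrb h2))
      omega

end

/-- three orthogonal subsystems `A₂` with positive roots `b i = c i + d i` -/
structure Dat (cs : CoxeterSystem M W) (h : IsCartan M A) (S : Set (I → ℤ)) (b c d u v : Fin 3 → I → ℤ) : Prop where
  rts : ∀ a ∈ S, IsRoot cs h a
  neg : ∀ a ∈ S, -a ∈ S
  bS : ∀ i, b i ∈ S
  cS : ∀ i, c i ∈ S
  dS : ∀ i, d i ∈ S
  b0 : ∀ i, 0 ≤ b i
  c0 : ∀ i, 0 ≤ c i
  d0 : ∀ i, 0 ≤ d i
  bcd : ∀ i, b i = c i + d i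
  buv : ∀ i, b i = u i + v i
  uR : ∀ i, IsRoot cs h (u i)
  vR : ∀ i, IsRoot cs h (v i)
  uS : ∀ i, u i ∉ S
  vS : ∀ i, v i ∉ S
  all : ∀ a ∈ S, 0 ≤ a → ∃ i, a = b i ∨ a = c i ∨ a = d i
  ort : ∀ i j, i ≠ j → ∀ x ∈ ({b i, c i, d i} : Set (I → ℤ)), ∀ y ∈ ({b j, c j, d j} : Set (I → ℤ)), cpr cs h x y = 0
  ort' : ∀ i j, i ≠ j → ∀ x ∈ ({b i, u i, v i} : Set (I → ℤ)), ∀ y ∈ ({b j, u j, v j} : Set (I → ℤ)), cpr cs h x y = 0
  one : ∀ i, cpr cs h (c i) (b i) = 1 ∧ cpr cs h (d i) (b i) = 1 ∧ cpr cs h (u i) (b i) = 1 ∧ cpr cs h (v i) (b i) = 1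
  uni : ∀ i, ∀ x, IsRoot cs h x → cpr cs h x (b i) = 1 → (∀ j, j ≠ i → cpr cs h x (b j) = 0) →
    x = c i ∨ x = d i ∨ x = u i ∨ x = v i
  gen : ∀ N : AddSubgroup (I → ℤ), S ⊆ N → u 0 ∈ N → N = ⊤
  three : (3 : ℤ) • u 0 ∈ AddSubgroup.closure S

namespace Dat

variable {S : Set (I → ℤ)} {b c d u v : Fin 3 → I → ℤ} (D : Dat cs h S b c d u v) (hs : SL cs h)
  {θ : (I → ℤ) ≃+ (I → ℤ)} (hroot : ∀ a, IsRoot cs h (θ a) ↔ IsRoot cs h a) (hmem : ∀ a, θ a ∈ S ↔ a ∈ S)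
  (hpos : ∀ a ∈ S, 0 ≤ a → 0 ≤ θ a)

include D hpos hmem in
/-- `θ` permutes the positive roots of `S` -/
theorem surj {a : I → ℤ} (ha : a ∈ S) (h0 : 0 ≤ a) : ∃ a' ∈ S, 0 ≤ a' ∧ θ a' = a := by
  let P := {a : I → ℤ // a ∈ S ∧ 0 ≤ a}
  have hfin : Finite P := by
    have h1 : {a : I → ℤ | a ∈ S ∧ 0 ≤ a} ⊆ (Set.range b ∪ Set.range c) ∪ Set.range d := by
      rintro a ⟨ha, h0⟩
      obtain ⟨i, rfl | rfl | rfl⟩ := D.all a ha h0
      · exact .inl (.inl ⟨i, rfl⟩)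
      · exact .inl (.inr ⟨i, rfl⟩)
      · exact .inr ⟨i, rfl⟩
    exact ((((Set.finite_range b).union (Set.finite_range c)).union (Set.finite_range d)).subset h1).to_subtype
  let f : P → P := fun x => ⟨θ x, (hmem _).2 x.2.1, hpos _ x.2.1 x.2.2⟩
  have hf : Function.Injective f := fun x y hxy => Subtype.ext (θ.injective (congrArg Subtype.val hxy))
  obtain ⟨x, hx⟩ := (Finite.injective_iff_surjective.1 hf) ⟨a, ha, h0⟩
  exact ⟨x, x.2.1, x.2.2, congrArg Subtype.val hx⟩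

include D in
theorem nonneg (i : Fin 3) {a : I → ℤ} (ha : a ∈ S) (h0 : 0 ≤ a) : 0 ≤ cpr cs h a (b i) := by
  obtain ⟨j, hj⟩ := D.all a ha h0
  by_cases hij : j = i
  · subst hij
    have hb := D.rts _ (D.bS j)
    obtain ⟨h1, h2, -, -⟩ := D.one j
    rcases hj with rfl | rfl | rfl
    · rw [cpr_self cs h hb]; norm_num
    · rw [h1]; norm_num
    · rw [h2]; norm_num
  · rw [D.ort j i hij a (by simpa using hj) (b i) (by simp)]

include D hs in
/-- `b i` is maximal -/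
theorem max (i : Fin 3) {a : I → ℤ} (ha : a ∈ S) (h0 : 0 ≤ a) : ¬ IsRoot cs h (b i + a) := by
  intro hr
  have hb := D.rts _ (D.bS i)
  have ha' := D.rts _ ha
  have hne : a ≠ -b i := by
    intro h1
    have h2 : b i ≤ 0 := by
      rw [h1] at h0
      exact neg_nonneg.1 h0
    exact hb.ne_zero (le_antisymm h2 (D.b0 i))
  rw [add_comm, add_iff hs ha' hb hne] at hr
  have := D.nonneg i ha h0
  omega

include D hs hroot hmem hpos in
theorem exists_perm (hnf : ¬ ∃ β ∈ S, 0 ≤ β ∧ θ β = β ∧ ∀ a ∈ S, 0 ≤ a → ¬ IsRoot cs h (β + a)) :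
    ∃ σ : Fin 3 → Fin 3, (∀ i, θ (b i) = b (σ i)) ∧ Function.Injective σ ∧ ∀ i, σ i ≠ i := by
  have key : ∀ i, ∃ j, θ (b i) = b j := by
    intro i
    obtain ⟨j, hj⟩ := D.all _ ((hmem _).2 (D.bS i)) (hpos _ (D.bS i) (D.b0 i))
    have hno : ∀ a ∈ S, 0 ≤ a → ¬ IsRoot cs h (θ (b i) + a) := by
      intro a ha h0 hr
      obtain ⟨a', ha', h0', rfl⟩ := D.surj hmem hpos ha h0
      rw [← map_add, hroot] at hr
      exact D.max hs i ha' h0' hr
    rcases hj with hj | hj | hj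
    · exact ⟨j, hj⟩
    · exact absurd (by rw [hj, ← D.bcd]; exact D.rts _ (D.bS j)) (hno _ (D.dS j) (D.d0 j))
    · exact absurd (by rw [hj, add_comm, ← D.bcd]; exact D.rts _ (D.bS j)) (hno _ (D.cS j) (D.c0 j))
  choose σ hσ using key
  refine ⟨σ, hσ, fun i j hij => ?_, fun i hi => ?_⟩
  · by_contra hne
    have h1 : b i = b j := θ.injective (by rw [hσ, hσ, hij])
    have h2 := D.ort i j hne (b i) (by simp) (b j) (by simp)
    rw [h1, cpr_self cs h (D.rts _ (D.bS j))] at h2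
    omega
  · exact hnf ⟨b i, D.bS i, D.b0 i, by rw [hσ, hi], fun a ha h0 => D.max hs i ha h0⟩

include D hs hroot in
/-- the images of the roots `x` with `⟨x, b i⟩ = 1`, `⟨x, b j⟩ = 0` -/
theorem img {σ : Fin 3 → Fin 3} (hσ : ∀ i, θ (b i) = b (σ i)) (hi : Function.Injective σ) {i : Fin 3} {x : I → ℤ}
    (hx : IsRoot cs h x) (h1 : cpr cs h x (b i) = 1) (h0 : ∀ j, j ≠ i → cpr cs h x (b j) = 0) :
    θ x = c (σ i) ∨ θ x = d (σ i) ∨ θ x = u (σ i) ∨ θ x = v (σ i) := by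
  have hsur : Function.Surjective σ := Finite.injective_iff_surjective.1 hi
  refine D.uni (σ i) _ ((hroot x).2 hx) ?_ fun j hj => ?_
  · rw [← hσ, iso hs hroot hx (D.rts _ (D.bS i)), h1]
  · obtain ⟨j, rfl⟩ := hsur j
    rw [← hσ, iso hs hroot hx (D.rts _ (D.bS j))]
    exact h0 j fun h => hj (by rw [h])

include D hs hroot hmem in
theorem cd {σ : Fin 3 → Fin 3} (hσ : ∀ i, θ (b i) = b (σ i)) (hi : Function.Injective σ) (i : Fin 3) :
    (θ (c i) = c (σ i) ∧ θ (d i) = d (σ i)) ∨ (θ (c i) = d (σ i) ∧ θ (d i) = c (σ i)) := by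
  have h1 := D.img hs hroot hσ hi (i := i) (D.rts _ (D.cS i)) (D.one i).1
    fun j hj => D.ort i j (Ne.symm hj) (c i) (by simp) (b j) (by simp)
  have hθc : θ (c i) ∈ S := (hmem _).2 (D.cS i)
  have h2 : θ (d i) = b (σ i) - θ (c i) := by
    rw [← hσ, D.bcd i, map_add, add_sub_cancel_left]
  rcases h1 with h1 | h1 | h1 | h1
  · left
    refine ⟨h1, ?_⟩
    rw [h2, h1, D.bcd (σ i), add_sub_cancel_left]
  · right
    refine ⟨h1, ?_⟩
    rw [h2, h1, D.bcd (σ i), add_sub_cancel_right]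
  · exact absurd (h1 ▸ hθc) (D.uS _)
  · exact absurd (h1 ▸ hθc) (D.vS _)

include D hs hroot hmem in
theorem uv {σ : Fin 3 → Fin 3} (hσ : ∀ i, θ (b i) = b (σ i)) (hi : Function.Injective σ) (i : Fin 3) :
    (θ (u i) = u (σ i) ∧ θ (v i) = v (σ i)) ∨ (θ (u i) = v (σ i) ∧ θ (v i) = u (σ i)) := by
  have h1 := D.img hs hroot hσ hi (i := i) (D.uR i) (D.one i).2.2.1
    fun j hj => D.ort' i j (Ne.symm hj) (u i) (by simp) (b j) (by simp)
  have hθu : θ (u i) ∉ S := fun h => D.uS i ((hmem _).1 h)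
  have h2 : θ (v i) = b (σ i) - θ (u i) := by
    rw [← hσ, D.buv i, map_add, add_sub_cancel_left]
  rcases h1 with h1 | h1 | h1 | h1
  · exact absurd (D.cS _) (h1 ▸ hθu)
  · exact absurd (D.dS _) (h1 ▸ hθu)
  · left
    refine ⟨h1, ?_⟩
    rw [h2, h1, D.buv (σ i), add_sub_cancel_left]
  · right
    refine ⟨h1, ?_⟩
    rw [h2, h1, D.buv (σ i), add_sub_cancel_right]

theorem perm3 : ∀ σ : Fin 3 → Fin 3, (∀ i j, σ i = σ j → i = j) → (∀ i, σ i ≠ i) →
    (∀ i, σ (σ (σ i)) = i) ∧ (∀ i, σ (σ i) ≠ i) ∧ ∀ j, j = 0 ∨ j = σ 0 ∨ j = σ (σ 0) := by decide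

include D hs hroot hmem hpos in
/-- **The structure `Tri`.** -/
theorem tri (hnf : ¬ ∃ β ∈ S, 0 ≤ β ∧ θ β = β ∧ ∀ a ∈ S, 0 ≤ a → ¬ IsRoot cs h (β + a)) :
    Cfsg.Agent.H338.RG.Tri cs h S θ (b 0) (c 0) (d 0) (u 0) (v 0) := by
  obtain ⟨σ, hσ, hi, hf⟩ := D.exists_perm hs hroot hmem hpos hnf
  obtain ⟨p1, p2, p3⟩ := perm3 σ (fun i j h => hi h) hf
  have hcd := D.cd hs hroot hmem hσ hi
  have huv := D.uv hs hroot hmem hσ hi
  have hσ1 : σ 0 ≠ 0 := hf 0
  have hσ2 : σ (σ 0) ≠ 0 := p2 0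
  have mcd : ∀ i, ∀ y ∈ ({b i, c i, d i} : Set (I → ℤ)), θ y ∈ ({b (σ i), c (σ i), d (σ i)} : Set (I → ℤ)) := by
    intro i y hy
    simp only [Set.mem_insert_iff, Set.mem_singleton_iff] at hy ⊢
    rcases hy with rfl | rfl | rfl
    · exact .inl (hσ i)
    · rcases hcd i with h | h
      · exact .inr (.inl h.1)
      · exact .inr (.inr h.1)
    · rcases hcd i with h | h
      · exact .inr (.inr h.2)
      · exact .inr (.inl h.2)
  have muv : ∀ i, ∀ y ∈ ({b i, u i, v i} : Set (I → ℤ)), θ y ∈ ({b (σ i), u (σ i), v (σ i)} : Set (I → ℤ)) := by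
    intro i y hy
    simp only [Set.mem_insert_iff, Set.mem_singleton_iff] at hy ⊢
    rcases hy with rfl | rfl | rfl
    · exact .inl (hσ i)
    · rcases huv i with h | h
      · exact .inr (.inl h.1)
      · exact .inr (.inr h.1)
    · rcases huv i with h | h
      · exact .inr (.inr h.2)
      · exact .inr (.inl h.2)
  exact {
    rts := D.rts
    neg := D.neg
    root := hroot
    mem := hmem
    pos := hpos
    bS := D.bS 0
    cS := D.cS 0
    dS := D.dS 0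
    b0 := D.b0 0
    c0 := D.c0 0
    d0 := D.d0 0
    bcd := D.bcd 0
    all := by
      intro a ha h0
      obtain ⟨j, hj⟩ := D.all a ha h0
      rcases p3 j with rfl | rfl | rfl
      · exact .inl hj
      · right; left
        rcases hcd 0 with ⟨e1, e2⟩ | ⟨e1, e2⟩
        · rw [hσ, e1, e2]; exact hj
        · rw [hσ, e1, e2]; exact hj.imp_right Or.symm
      · right; right
        rcases hcd 0 with ⟨e1, e2⟩ | ⟨e1, e2⟩ <;> rcases hcd (σ 0) with ⟨e3, e4⟩ | ⟨e3, e4⟩ <;>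
          rw [hσ, hσ, e1, e2, e3, e4]
        · exact hj
        · exact hj.imp_right Or.symm
        · exact hj.imp_right Or.symm
        · exact hj
    uR := D.uR 0
    vR := D.vR 0
    uS := D.uS 0
    vS := D.vS 0
    buv := D.buv 0
    tb := by rw [hσ, hσ, hσ, p1]
    tc := by
      rcases hcd 0 with ⟨e1, e2⟩ | ⟨e1, e2⟩ <;> rcases hcd (σ 0) with ⟨e3, e4⟩ | ⟨e3, e4⟩ <;>
        rcases hcd (σ (σ 0)) with ⟨e5, e6⟩ | ⟨e5, e6⟩ <;> rw [p1] at e5 e6 <;> simp [e1, e2, e3, e4, e5, e6]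
    tu := by
      rcases huv 0 with ⟨e1, e2⟩ | ⟨e1, e2⟩ <;> rcases huv (σ 0) with ⟨e3, e4⟩ | ⟨e3, e4⟩ <;>
        rcases huv (σ (σ 0)) with ⟨e5, e6⟩ | ⟨e5, e6⟩ <;> rw [p1] at e5 e6 <;> simp [e1, e2, e3, e4, e5, e6]
    ort := fun x hx y hy => ⟨D.ort 0 (σ 0) hσ1.symm x hx _ (mcd 0 y hy),
      D.ort 0 (σ (σ 0)) hσ2.symm x hx _ (mcd _ _ (mcd 0 y hy))⟩
    ort' := fun x hx y hy => ⟨D.ort' 0 (σ 0) hσ1.symm x hx _ (muv 0 y hy),
      D.ort' 0 (σ (σ 0)) hσ2.symm x hx _ (muv _ _ (muv 0 y hy))⟩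
    gen := D.gen
    three := D.three }

end Dat

end Cfsg.Agent.H194.RG
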