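import Cfsg.Agent.H194.RG.TriTab

/-!
# S3509, `E₆`: the checks of the rows of the table of the subsystems `A₂ A₂ A₂` (helper194)
-/

set_option autoImplicit false

namespace Cfsg.Agent.H194.RG

open Cfsg Cfsg.Lie Cfsg.Agent.ChevalleyStructure Cfsg.Agent.ChevalleyStructure.RootVec Cfsg.Agent.Nodes.RGDChev
open Cfsg.Agent.KFacts.ChevTwoTab (carB)

def gi (l : List ℕ) (i : Fin 3) : ℕ := l.getD i 0

/-- the value of the function at the root `q` -/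
def fv (r : Row) (q : ℕ) : ℤ := ∑ k : Fin 6, ((r.f.getD k 0 : ℕ) : ℤ) * vec chevE6 6 q k

/-- the coefficients -/
def gg (l : List ℤ) (k : ℕ) : ℤ := l.getD k 0

theorem neg_lt : ∀ q < 36, ∃ k : Fin 6, vec chevE6 6 q k < 0 := by decide +kernel

theorem row_lt : ∀ r ∈ TT6, ∀ i : Fin 3, gi r.b i < 72 ∧ gi r.c i < 72 ∧ gi r.d i < 72 ∧ gi r.u i < 72 ∧
    gi r.v i < 72 := by decide +kernel

theorem row_nn : ∀ r ∈ TT6, ∀ i : Fin 3, ∀ k : Fin 6, 0 ≤ vec chevE6 6 (gi r.c i) k ∧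
    0 ≤ vec chevE6 6 (gi r.d i) k := by decide +kernel

theorem row_sum : ∀ r ∈ TT6, ∀ i : Fin 3, ∀ k : Fin 6,
    vec chevE6 6 (gi r.b i) k = vec chevE6 6 (gi r.c i) k + vec chevE6 6 (gi r.d i) k ∧
    vec chevE6 6 (gi r.b i) k = vec chevE6 6 (gi r.u i) k + vec chevE6 6 (gi r.v i) k := by decide +kernel

theorem row_mem : ∀ r ∈ TT6, ∀ i : Fin 3, fv r (gi r.b i) % 3 = 0 ∧ fv r (gi r.c i) % 3 = 0 ∧
    fv r (gi r.d i) % 3 = 0 ∧ fv r (gi r.u i) % 3 ≠ 0 ∧ fv r (gi r.v i) % 3 ≠ 0 := by decide +kernel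

theorem row_all : ∀ r ∈ TT6, ∀ q < 72, 36 ≤ q → fv r q % 3 = 0 →
    ∃ i : Fin 3, q = gi r.b i ∨ q = gi r.c i ∨ q = gi r.d i := by decide +kernel

theorem row_ort : ∀ r ∈ TT6, ∀ i j : Fin 3, i < j →
    carB chevE6 (gi r.c j) (gi r.c i) = 0 ∧ carB chevE6 (gi r.d j) (gi r.c i) = 0 ∧
    carB chevE6 (gi r.c j) (gi r.d i) = 0 ∧ carB chevE6 (gi r.d j) (gi r.d i) = 0 := by decide +kernel

theorem row_ort' : ∀ r ∈ TT6, ∀ i j : Fin 3, i < j →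
    carB chevE6 (gi r.u j) (gi r.u i) = 0 ∧ carB chevE6 (gi r.v j) (gi r.u i) = 0 ∧
    carB chevE6 (gi r.u j) (gi r.v i) = 0 ∧ carB chevE6 (gi r.v j) (gi r.v i) = 0 := by decide +kernel

theorem row_uni : ∀ r ∈ TT6, ∀ i : Fin 3, ∀ q < 72, carB chevE6 (gi r.b i) q = 1 →
    (∀ j : Fin 3, j ≠ i → carB chevE6 (gi r.b j) q = 0) → q = gi r.c i ∨ q = gi r.d i ∨ q = gi r.u i ∨ q = gi r.v i := by
  decide +kernel

theorem row_gen : ∀ r ∈ TT6, ∀ k j : Fin 6, vec chevE6 6 (chevE6.simple k) j =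
    gg (r.g.getD k []) 0 * vec chevE6 6 (gi r.u 0) j + (gg (r.g.getD k []) 1 * vec chevE6 6 (gi r.c 0) j +
    gg (r.g.getD k []) 2 * vec chevE6 6 (gi r.d 0) j + gg (r.g.getD k []) 3 * vec chevE6 6 (gi r.c 1) j +
    gg (r.g.getD k []) 4 * vec chevE6 6 (gi r.d 1) j + gg (r.g.getD k []) 5 * vec chevE6 6 (gi r.c 2) j +
    gg (r.g.getD k []) 6 * vec chevE6 6 (gi r.d 2) j) := by decide +kernel

theorem row_three : ∀ r ∈ TT6, ∀ j : Fin 6, 3 * vec chevE6 6 (gi r.u 0) j =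
    gg r.t 0 * vec chevE6 6 (gi r.c 0) j +
    gg r.t 1 * vec chevE6 6 (gi r.d 0) j + gg r.t 2 * vec chevE6 6 (gi r.c 1) j +
    gg r.t 3 * vec chevE6 6 (gi r.d 1) j + gg r.t 4 * vec chevE6 6 (gi r.c 2) j +
    gg r.t 5 * vec chevE6 6 (gi r.d 2) j := by decide +kernel

end Cfsg.Agent.H194.RG
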