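import Cfsg.Agent.H194.RG.TriDat
import Cfsg.Agent.H194.RG.TriRow
import Cfsg.Agent.KFacts.RgdKap

/-!
# S3509, `E₆`, `²E₆`: the subsystem of type `A₂ A₂ A₂` (helper194, box A of helper338)

* `exists_e` : a character of order three of the lattice is given by exponents modulo three;
* `exists_row` : the kernel of a character of order three with `18` roots is a row of the table;
* `dat_of_row` : the structure `Dat`;
* `exists_tri` : the structure `Tri` of helper338.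
-/

set_option autoImplicit false
set_option linter.unusedSectionVars false

namespace Cfsg.Agent.H194.RG

open CoxeterSystem Cfsg.Agent.ChevalleyStructure.CoxeterGeom Cfsg.Agent.Tits.Roots Cfsg.Agent.Tits.Core
  Cfsg.Agent.Nodes.Reps Cfsg.Agent.Nodes.Coroot Cfsg.Agent.KFacts.RgdSL
open Cfsg Cfsg.Lie Cfsg.Agent.ChevalleyStructure Cfsg.Agent.ChevalleyStructure.RootVec Cfsg.Agent.Nodes.RGDChev
open Cfsg.Agent.ChevalleyStructure.CoxeterGeomTypes

/-! ### Characters of order three -/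

section

variable {k : Type*} [Field k] (ψ : (Fin 6 → ℤ) → k) (h0 : ψ 0 = 1) (hadd : ∀ x y, ψ (x + y) = ψ x * ψ y)
  (h3 : ∀ x, ψ x ^ 3 = 1)

include h0 hadd h3 in
theorem exists_e : ∃ e : Fin 6 → Fin 3, ∀ x : Fin 6 → ℤ, ψ x = 1 ↔ (∑ i, (((e i : Fin 3) : ℕ) : ℤ) * x i) % 3 = 0 := by
  classical
  have hne : ∀ x, ψ x ≠ 0 := fun x h => by
    have := h3 x
    rw [h, zero_pow (by norm_num)] at this
    exact zero_ne_one this
  let Ψ : (Fin 6 → ℤ) →+ Additive kˣ := AddMonoidHom.mk' (fun x => Additive.ofMul (Units.mk0 (ψ x) (hne x))) (by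
    intro x y
    rw [← ofMul_mul]
    congr 1
    exact Units.ext (by simp [hadd]))
  have hΨ : ∀ x, Ψ x = 0 ↔ ψ x = 1 := by
    intro x
    change Additive.ofMul (Units.mk0 (ψ x) (hne x)) = 0 ↔ _
    rw [ofMul_eq_zero, Units.ext_iff]
    rfl
  have hΨ3 : ∀ x, 3 • Ψ x = 0 := by
    intro x
    rw [← map_nsmul, hΨ]
    have : ψ (3 • x) = ψ x ^ 3 := by
      rw [show (3 : ℕ) • x = x + x + x by abel, hadd, hadd]; ring
    rw [this, h3]
  have hexp : ∀ x : Fin 6 → ℤ, Ψ x = ∑ i, x i • Ψ (Pi.single i 1) := by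
    intro x
    conv_lhs => rw [← Finset.univ_sum_single x]
    rw [map_sum]
    refine Finset.sum_congr rfl fun i _ => ?_
    rw [← map_zsmul, ← Pi.single_smul, smul_eq_mul, mul_one]
  by_cases htriv : ∀ i : Fin 6, Ψ (Pi.single i 1) = 0
  · refine ⟨fun _ => 0, fun x => ?_⟩
    rw [← hΨ, hexp]
    simp [htriv]
  · push Not at htriv
    obtain ⟨i₀, hi₀⟩ := htriv
    set Ω := Ψ (Pi.single i₀ 1) with hΩ
    have hord : addOrderOf Ω = 3 := by
      have : Fact (Nat.Prime 3) := ⟨Nat.prime_three⟩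
      exact addOrderOf_eq_prime (hΨ3 _) hi₀
    -- every element of order three is a multiple
    have key : ∀ i : Fin 6, ∃ e : Fin 3, Ψ (Pi.single i 1) = (((e : Fin 3) : ℕ) : ℤ) • Ω := by
      intro i
      set y := ψ (Pi.single i 1) with hy
      set w := ψ (Pi.single i₀ 1) with hw
      have hw1 : w ≠ 1 := fun h => hi₀ ((hΨ _).2 h)
      have hw3 : w ^ 3 = 1 := h3 _
      have hy3 : y ^ 3 = 1 := h3 _
      have hsum : w ^ 2 + w + 1 = 0 := by
        have h4 : (w - 1) * (w ^ 2 + w + 1) = 0 := by ring_nf; rw [hw3]; ring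
        exact (mul_eq_zero.1 h4).resolve_left (sub_ne_zero.2 hw1)
      have hfac : (y - 1) * (y - w) * (y - w ^ 2) = 0 := by
        have h5 : (y - 1) * (y - w) * (y - w ^ 2) = y ^ 3 - (w ^ 2 + w + 1) * y ^ 2 + (w ^ 3 + w ^ 2 + w) * y - w ^ 3 := by
          ring
        rw [h5, hsum, hw3, hy3]
        have h6 : 1 + w ^ 2 + w = 0 := by rw [← hsum]; ring
        rw [h6]; ring
      have hval : ∀ n : ℕ, y = w ^ n → Ψ (Pi.single i 1) = (n : ℤ) • Ω := by
        intro n hn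
        rw [natCast_zsmul, hΩ]
        change Additive.ofMul (Units.mk0 (ψ (Pi.single i 1)) _) = n • Additive.ofMul (Units.mk0 (ψ (Pi.single i₀ 1)) _)
        rw [← ofMul_pow]
        congr 1
        exact Units.ext (by simpa using hn)
      rcases mul_eq_zero.1 hfac with h7 | h7
      · rcases mul_eq_zero.1 h7 with h8 | h8
        · exact ⟨0, hval 0 (by rw [pow_zero]; exact sub_eq_zero.1 h8)⟩
        · exact ⟨1, hval 1 (by rw [pow_one]; exact sub_eq_zero.1 h8)⟩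
      · exact ⟨2, hval 2 (sub_eq_zero.1 h7)⟩
    choose e he using key
    refine ⟨e, fun x => ?_⟩
    have h4 : Ψ x = (∑ i, (((e i : Fin 3) : ℕ) : ℤ) * x i) • Ω := by
      have h5 : ∀ n : ℤ, n • Ω = zmultiplesHom (Additive kˣ) Ω n := fun n => rfl
      rw [h5, map_sum, hexp]
      refine Finset.sum_congr rfl fun i _ => ?_
      rw [← h5, he i, ← mul_zsmul]
      try rw [mul_comm]
    rw [← hΨ, h4, ← addOrderOf_dvd_iff_zsmul_eq_zero, hord]
    exact Int.dvd_iff_emod_eq_zero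

end

/-! ### The row -/

theorem RM_list : RM = (List.range 72).map fun q => RM.getD q [] := by decide +kernel

theorem RM_six : ∀ q < 72, RM.getD q [] = [(RM.getD q []).getD 0 0, (RM.getD q []).getD 1 0, (RM.getD q []).getD 2 0,
    (RM.getD q []).getD 3 0, (RM.getD q []).getD 4 0, (RM.getD q []).getD 5 0] := by decide +kernel

theorem dot_iff (e : Fin 6 → Fin 3) {q : ℕ} (hq : q < 72) :
    dotM (e 0) (e 1) (e 2) (e 3) (e 4) (e 5) (RM.getD q []) = 0 ↔
      (∑ i, (((e i : Fin 3) : ℕ) : ℤ) * vec chevE6 6 q i) % 3 = 0 := by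
  have h1 : ∀ i : Fin 6, (3 : ℤ) ∣ (((e i : Fin 3) : ℕ) : ℤ) * vec chevE6 6 q i -
      (((e i : Fin 3) : ℕ) : ℤ) * ((RM.getD q []).getD i 0 : ℕ) := by
    intro i
    rw [← mul_sub, RM_eq q hq i]
    exact Dvd.dvd.mul_left (Int.dvd_self_sub_emod) _
  have h2 : (3 : ℤ) ∣ (∑ i, (((e i : Fin 3) : ℕ) : ℤ) * vec chevE6 6 q i) -
      ∑ i : Fin 6, (((e i : Fin 3) : ℕ) : ℤ) * ((RM.getD q []).getD i 0 : ℕ) := by
    rw [← Finset.sum_sub_distrib]
    exact Finset.dvd_sum fun i _ => h1 i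
  rw [RM_six q hq]
  change (_ : ℕ) % 3 = 0 ↔ _
  rw [Fin.sum_univ_six (f := fun i : Fin 6 => (((e i : Fin 3) : ℕ) : ℤ) * ((RM.getD q []).getD i 0 : ℕ))] at h2
  have h3 : (((e 0 : ℕ) * (RM.getD q []).getD 0 0 + (e 1 : ℕ) * (RM.getD q []).getD 1 0 +
      (e 2 : ℕ) * (RM.getD q []).getD 2 0 + (e 3 : ℕ) * (RM.getD q []).getD 3 0 +
      (e 4 : ℕ) * (RM.getD q []).getD 4 0 + (e 5 : ℕ) * (RM.getD q []).getD 5 0 : ℕ) : ℤ) =
      (e 0 : ℕ) * ((RM.getD q []).getD ((0 : Fin 6) : ℕ) 0 : ℕ) + (e 1 : ℕ) * ((RM.getD q []).getD ((1 : Fin 6) : ℕ) 0 : ℕ) +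
      (e 2 : ℕ) * ((RM.getD q []).getD ((2 : Fin 6) : ℕ) 0 : ℕ) + (e 3 : ℕ) * ((RM.getD q []).getD ((3 : Fin 6) : ℕ) 0 : ℕ) +
      (e 4 : ℕ) * ((RM.getD q []).getD ((4 : Fin 6) : ℕ) 0 : ℕ) +
      (e 5 : ℕ) * ((RM.getD q []).getD ((5 : Fin 6) : ℕ) 0 : ℕ) := by
    push_cast
    rfl
  rw [← h3] at h2
  generalize (e 0 : ℕ) * (RM.getD q []).getD 0 0 + (e 1 : ℕ) * (RM.getD q []).getD 1 0 +
      (e 2 : ℕ) * (RM.getD q []).getD 2 0 + (e 3 : ℕ) * (RM.getD q []).getD 3 0 +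
      (e 4 : ℕ) * (RM.getD q []).getD 4 0 + (e 5 : ℕ) * (RM.getD q []).getD 5 0 = N at *
  generalize (∑ i, (((e i : Fin 3) : ℕ) : ℤ) * vec chevE6 6 q i) = Z at *
  change N % 3 = 0 ↔ _
  omega

theorem cnt_eq (e : Fin 6 → Fin 3) : cnt (e 0) (e 1) (e 2) (e 3) (e 4) (e 5) =
    ((Finset.range 72).filter fun q => (∑ i, (((e i : Fin 3) : ℕ) : ℤ) * vec chevE6 6 q i) % 3 = 0).card := by
  classical
  unfold cnt
  conv_lhs => rw [RM_list]
  rw [List.countP_map, List.countP_eq_length_filter]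
  have h1 : ((Finset.range 72).filter fun q => (∑ i, (((e i : Fin 3) : ℕ) : ℤ) * vec chevE6 6 q i) % 3 = 0).card =
      ((List.range 72).filter fun q => decide ((∑ i, (((e i : Fin 3) : ℕ) : ℤ) * vec chevE6 6 q i) % 3 = 0)).length := by
    rfl
  rw [h1]
  congr 1
  refine List.filter_congr fun q hq => ?_
  have h2 := dot_iff e (List.mem_range.1 hq)
  rw [Function.comp_apply, beq_eq_decide]
  exact decide_eq_decide.2 h2

theorem eqv_iff {e : Fin 6 → Fin 3} {r : Row} (h : eqv (e 0) (e 1) (e 2) (e 3) (e 4) (e 5) r.f = true) (q : ℕ) :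
    fv r q % 3 = 0 ↔ (∑ i, (((e i : Fin 3) : ℕ) : ℤ) * vec chevE6 6 q i) % 3 = 0 := by
  unfold eqv at h
  rw [Bool.or_eq_true, beq_iff_eq, beq_iff_eq] at h
  unfold fv
  rcases h with h | h
  · rw [h]
    have : ∀ i : Fin 6, ([((e 0 : Fin 3) : ℕ), (e 1 : ℕ), (e 2 : ℕ), (e 3 : ℕ), (e 4 : ℕ), (e 5 : ℕ)].getD i 0) =
        ((e i : Fin 3) : ℕ) := by
      intro i
      fin_cases i <;> rfl
    simp only [this]
  · rw [h]
    have h1 : ∀ i : Fin 6, ([(3 - ((e 0 : Fin 3) : ℕ)) % 3, (3 - (e 1 : ℕ)) % 3, (3 - (e 2 : ℕ)) % 3, (3 - (e 3 : ℕ)) % 3,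
        (3 - (e 4 : ℕ)) % 3, (3 - (e 5 : ℕ)) % 3].getD i 0) = (3 - ((e i : Fin 3) : ℕ)) % 3 := by
      intro i
      fin_cases i <;> rfl
    simp only [h1]
    have h2 : (3 : ℤ) ∣ (∑ i : Fin 6, (((3 - ((e i : Fin 3) : ℕ)) % 3 : ℕ) : ℤ) * vec chevE6 6 q i) +
        ∑ i, (((e i : Fin 3) : ℕ) : ℤ) * vec chevE6 6 q i := by
      rw [← Finset.sum_add_distrib]
      refine Finset.dvd_sum fun i _ => ?_
      rw [← add_mul]
      refine Dvd.dvd.mul_right ?_ _
      have := (e i).2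
      omega
    omega

variable {M : CoxeterMatrix (Fin 6)} (hp : IsType chevE6 6 M) {W : Type*} [Group W] [Finite W] (cs : CoxeterSystem M W)

theorem exists_row {k : Type*} [Field k] (ψ : (Fin 6 → ℤ) → k) (h0 : ψ 0 = 1)
    (hadd : ∀ x y, ψ (x + y) = ψ x * ψ y) (h3 : ∀ x, ψ x ^ 3 = 1) {S : Set (Fin 6 → ℤ)}
    (hS : ∀ a, a ∈ S ↔ IsRoot cs hp.isCartan a ∧ ψ a = 1) (hcard : Nat.card S = 18) :
    ∃ r ∈ TT6, ∀ q < 72, vec chevE6 6 q ∈ S ↔ fv r q % 3 = 0 := by
  classical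
  obtain ⟨e, he⟩ := exists_e ψ h0 hadd h3
  have h1 : S = vec chevE6 6 '' (((Finset.range 72).filter fun q =>
      (∑ i, (((e i : Fin 3) : ℕ) : ℤ) * vec chevE6 6 q i) % 3 = 0 : Finset ℕ) : Set ℕ) := by
    ext a
    rw [hS, isRoot_iff hp cs]
    simp only [Set.mem_image, Finset.coe_filter, Finset.mem_range, Set.mem_ofPred_eq]
    constructor
    · rintro ⟨⟨q, hq, rfl⟩, h⟩
      exact ⟨q, ⟨hq, (he _).1 h⟩, rfl⟩
    · rintro ⟨q, ⟨hq, h⟩, rfl⟩
      exact ⟨⟨q, hq, rfl⟩, (he _).2 h⟩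
  have h2 : ((Finset.range 72).filter fun q =>
      (∑ i, (((e i : Fin 3) : ℕ) : ℤ) * vec chevE6 6 q i) % 3 = 0).card = 18 := by
    rw [← hcard, h1, Nat.card_coe_set_eq, Set.InjOn.ncard_image, Set.ncard_coe_finset]
    intro q hq q' hq' hqq
    simp only [Finset.coe_filter, Finset.mem_range, Set.mem_ofPred_eq] at hq hq'
    exact vec_inj hp hq.1 hq'.1 hqq
  rw [← cnt_eq] at h2
  have h4 := chk_f (e 0) (e 1) (e 2) (e 3) (e 4) (e 5) (by rw [h2]; rfl)
  obtain ⟨r, hr, hr'⟩ := List.any_eq_true.1 h4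
  refine ⟨r, hr, fun q hq => ?_⟩
  rw [eqv_iff hr', hS, he]
  exact ⟨fun h => h.2, fun h => ⟨(isRoot_iff hp cs _).2 ⟨q, hq, rfl⟩, h⟩⟩

theorem car_tab : ∀ i j : Fin 6, chevE6.cartan i (chevE6.simple j) ≠ -2 ∧ chevE6.cartan i (chevE6.simple j) ≠ -3 := by
  decide +kernel

include hp in
theorem sl6 : SL cs hp.isCartan := by
  have key : ∀ i j, M i j ≠ 4 ∧ M i j ≠ 6 := by
    intro i j
    by_cases hij : i = j
    · subst hij
      rw [M.diagonal]
      exact ⟨by norm_num, by norm_num⟩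
    · have h1 := car_tab i j
      have h2 := car_tab j i
      rcases hp.isCartan.rel i j hij with h | h | h | h
      · rw [h.1]; exact ⟨by norm_num, by norm_num⟩
      · rw [h.1]; exact ⟨by norm_num, by norm_num⟩
      · exfalso
        rcases h.2 with h | h
        · exact h2.1 h.2
        · exact h1.1 h.1
      · exfalso
        rcases h.2 with h | h
        · exact h2.2 h.2
        · exact h1.2 h.1
  exact Cfsg.Agent.KFacts.RgdKap.sl_of (fun i j => (key i j).1) fun i j => (key i j).2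

open Cfsg.Agent.KFacts.ChevTwoTab (carB) in
theorem cpr_q {q q' : ℕ} (hq : q < 72) (hq' : q' < 72) :
    cpr cs hp.isCartan (vec chevE6 6 q) (vec chevE6 6 q') = carB chevE6 q' q := by
  rw [Cfsg.Agent.KFacts.ChevTwoInst.cpr_vec hp cs hq' q hq, Cfsg.Agent.KFacts.ChevTwoInst.carB_eq]

/-- orthogonality of two subsystems `A₂` -/
theorem ort_of {b c d b' c' d' : Fin 6 → ℤ} (hb : IsRoot cs hp.isCartan b) (hc : IsRoot cs hp.isCartan c)
    (hd : IsRoot cs hp.isCartan d) (hb' : IsRoot cs hp.isCartan b') (hc' : IsRoot cs hp.isCartan c')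
    (hd' : IsRoot cs hp.isCartan d') (e : b = c + d) (e' : b' = c' + d') (h1 : cpr cs hp.isCartan c c' = 0)
    (h2 : cpr cs hp.isCartan c d' = 0) (h3 : cpr cs hp.isCartan d c' = 0) (h4 : cpr cs hp.isCartan d d' = 0) :
    ∀ x ∈ ({b, c, d} : Set (Fin 6 → ℤ)), ∀ y ∈ ({b', c', d'} : Set (Fin 6 → ℤ)), cpr cs hp.isCartan x y = 0 := by
  have hs := sl6 hp cs
  have k1 : ∀ {x : Fin 6 → ℤ}, IsRoot cs hp.isCartan x → cpr cs hp.isCartan x c' = 0 → cpr cs hp.isCartan x d' = 0 →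
      ∀ y ∈ ({b', c', d'} : Set (Fin 6 → ℤ)), cpr cs hp.isCartan x y = 0 := by
    intro x hx g1 g2 y hy
    simp only [Set.mem_insert_iff, Set.mem_singleton_iff] at hy
    rcases hy with rfl | rfl | rfl
    · rw [hs x _ hx hb', e', cpr_add cs _ _ _ hx, hs _ _ hc' hx, hs _ _ hd' hx, g1, g2, add_zero]
    · exact g1
    · exact g2
  intro x hx
  simp only [Set.mem_insert_iff, Set.mem_singleton_iff] at hx
  rcases hx with rfl | rfl | rfl
  · exact k1 hb (by rw [e, cpr_add cs _ _ _ hc', h1, h3, add_zero]) (by rw [e, cpr_add cs _ _ _ hd', h2, h4, add_zero])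
  · exact k1 hc h1 h2
  · exact k1 hd h3 h4

theorem dat_of_row {r : Row} (hr : r ∈ TT6) {S : Set (Fin 6 → ℤ)} (hSr : ∀ a ∈ S, IsRoot cs hp.isCartan a)
    (hSn : ∀ a ∈ S, -a ∈ S) (hS : ∀ q < 72, vec chevE6 6 q ∈ S ↔ fv r q % 3 = 0) :
    Dat cs hp.isCartan S (fun i => vec chevE6 6 (gi r.b i)) (fun i => vec chevE6 6 (gi r.c i))
      (fun i => vec chevE6 6 (gi r.d i)) (fun i => vec chevE6 6 (gi r.u i)) (fun i => vec chevE6 6 (gi r.v i)) := by
  have hs := sl6 hp cs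
  have hlt := row_lt r hr
  have hroot : ∀ {q : ℕ}, q < 72 → IsRoot cs hp.isCartan (vec chevE6 6 q) := fun hq =>
    (isRoot_iff hp cs _).2 ⟨_, hq, rfl⟩
  have rb := fun i => hroot (hlt i).1
  have rc := fun i => hroot (hlt i).2.1
  have rd := fun i => hroot (hlt i).2.2.1
  have ru := fun i => hroot (hlt i).2.2.2.1
  have rv := fun i => hroot (hlt i).2.2.2.2
  have bcd : ∀ i, vec chevE6 6 (gi r.b i) = vec chevE6 6 (gi r.c i) + vec chevE6 6 (gi r.d i) := fun i =>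
    funext fun k => (row_sum r hr i k).1
  have buv : ∀ i, vec chevE6 6 (gi r.b i) = vec chevE6 6 (gi r.u i) + vec chevE6 6 (gi r.v i) := fun i =>
    funext fun k => (row_sum r hr i k).2
  have c0 : ∀ i, (0 : Fin 6 → ℤ) ≤ vec chevE6 6 (gi r.c i) := fun i k => (row_nn r hr i k).1
  have d0 : ∀ i, (0 : Fin 6 → ℤ) ≤ vec chevE6 6 (gi r.d i) := fun i k => (row_nn r hr i k).2
  have hmem := row_mem r hr
  have one : ∀ {b c d : Fin 6 → ℤ}, IsRoot cs hp.isCartan b → IsRoot cs hp.isCartan c → IsRoot cs hp.isCartan d →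
      b = c + d → cpr cs hp.isCartan c b = 1 ∧ cpr cs hp.isCartan d b = 1 := by
    intro b c d hb hc hd e
    have hne : c ≠ -d := by
      rintro rfl
      rw [neg_add_cancel] at e
      exact hb.ne_zero e
    have h1 := (add_iff hs hc hd hne).1 (e ▸ hb)
    have h2 : cpr cs hp.isCartan d c = -1 := by rw [hs _ _ hd hc, h1]
    refine ⟨?_, ?_⟩
    · rw [hs _ _ hc hb, e, cpr_add cs _ _ _ hc, cpr_self cs _ hc, h2]; norm_num
    · rw [hs _ _ hd hb, e, cpr_add cs _ _ _ hd, cpr_self cs _ hd, h1]; norm_num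
  have ort : ∀ i j : Fin 3, i ≠ j → ∀ x ∈ ({vec chevE6 6 (gi r.b i), vec chevE6 6 (gi r.c i),
      vec chevE6 6 (gi r.d i)} : Set (Fin 6 → ℤ)), ∀ y ∈ ({vec chevE6 6 (gi r.b j), vec chevE6 6 (gi r.c j),
      vec chevE6 6 (gi r.d j)} : Set (Fin 6 → ℤ)), cpr cs hp.isCartan x y = 0 := by
    have key : ∀ i j : Fin 3, i < j → ∀ x ∈ ({vec chevE6 6 (gi r.b i), vec chevE6 6 (gi r.c i),
        vec chevE6 6 (gi r.d i)} : Set (Fin 6 → ℤ)), ∀ y ∈ ({vec chevE6 6 (gi r.b j), vec chevE6 6 (gi r.c j),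
        vec chevE6 6 (gi r.d j)} : Set (Fin 6 → ℤ)), cpr cs hp.isCartan x y = 0 := by
      intro i j hij
      obtain ⟨h1, h2, h3, h4⟩ := row_ort r hr i j hij
      refine ort_of hp cs (rb i) (rc i) (rd i) (rb j) (rc j) (rd j) (bcd i) (bcd j) ?_ ?_ ?_ ?_
      · rw [cpr_q hp cs (hlt i).2.1 (hlt j).2.1, h1]
      · rw [cpr_q hp cs (hlt i).2.1 (hlt j).2.2.1, h2]
      · rw [cpr_q hp cs (hlt i).2.2.1 (hlt j).2.1, h3]
      · rw [cpr_q hp cs (hlt i).2.2.1 (hlt j).2.2.1, h4]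
    intro i j hij x hx y hy
    rcases lt_or_gt_of_ne hij with h | h
    · exact key i j h x hx y hy
    · have hxr : IsRoot cs hp.isCartan x := by
        simp only [Set.mem_insert_iff, Set.mem_singleton_iff] at hx
        rcases hx with rfl | rfl | rfl
        · exact rb i
        · exact rc i
        · exact rd i
      have hyr : IsRoot cs hp.isCartan y := by
        simp only [Set.mem_insert_iff, Set.mem_singleton_iff] at hy
        rcases hy with rfl | rfl | rfl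
        · exact rb j
        · exact rc j
        · exact rd j
      rw [hs _ _ hxr hyr]
      exact key j i h y hy x hx
  have ort' : ∀ i j : Fin 3, i ≠ j → ∀ x ∈ ({vec chevE6 6 (gi r.b i), vec chevE6 6 (gi r.u i),
      vec chevE6 6 (gi r.v i)} : Set (Fin 6 → ℤ)), ∀ y ∈ ({vec chevE6 6 (gi r.b j), vec chevE6 6 (gi r.u j),
      vec chevE6 6 (gi r.v j)} : Set (Fin 6 → ℤ)), cpr cs hp.isCartan x y = 0 := by
    have key : ∀ i j : Fin 3, i < j → ∀ x ∈ ({vec chevE6 6 (gi r.b i), vec chevE6 6 (gi r.u i),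
        vec chevE6 6 (gi r.v i)} : Set (Fin 6 → ℤ)), ∀ y ∈ ({vec chevE6 6 (gi r.b j), vec chevE6 6 (gi r.u j),
        vec chevE6 6 (gi r.v j)} : Set (Fin 6 → ℤ)), cpr cs hp.isCartan x y = 0 := by
      intro i j hij
      obtain ⟨h1, h2, h3, h4⟩ := row_ort' r hr i j hij
      refine ort_of hp cs (rb i) (ru i) (rv i) (rb j) (ru j) (rv j) (buv i) (buv j) ?_ ?_ ?_ ?_
      · rw [cpr_q hp cs (hlt i).2.2.2.1 (hlt j).2.2.2.1, h1]
      · rw [cpr_q hp cs (hlt i).2.2.2.1 (hlt j).2.2.2.2, h2]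
      · rw [cpr_q hp cs (hlt i).2.2.2.2 (hlt j).2.2.2.1, h3]
      · rw [cpr_q hp cs (hlt i).2.2.2.2 (hlt j).2.2.2.2, h4]
    intro i j hij x hx y hy
    rcases lt_or_gt_of_ne hij with h | h
    · exact key i j h x hx y hy
    · have hxr : IsRoot cs hp.isCartan x := by
        simp only [Set.mem_insert_iff, Set.mem_singleton_iff] at hx
        rcases hx with rfl | rfl | rfl
        · exact rb i
        · exact ru i
        · exact rv i
      have hyr : IsRoot cs hp.isCartan y := by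
        simp only [Set.mem_insert_iff, Set.mem_singleton_iff] at hy
        rcases hy with rfl | rfl | rfl
        · exact rb j
        · exact ru j
        · exact rv j
      rw [hs _ _ hxr hyr]
      exact key j i h y hy x hx
  exact
    { rts := hSr
      neg := hSn
      bS := fun i => (hS _ (hlt i).1).2 (hmem i).1
      cS := fun i => (hS _ (hlt i).2.1).2 (hmem i).2.1
      dS := fun i => (hS _ (hlt i).2.2.1).2 (hmem i).2.2.1
      b0 := fun i => by rw [bcd i]; exact add_nonneg (c0 i) (d0 i)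
      c0 := c0
      d0 := d0
      bcd := bcd
      buv := buv
      uR := ru
      vR := rv
      uS := fun i h => (hmem i).2.2.2.1 ((hS _ (hlt i).2.2.2.1).1 h)
      vS := fun i h => (hmem i).2.2.2.2 ((hS _ (hlt i).2.2.2.2).1 h)
      all := by
        intro a ha h0
        obtain ⟨q, hq, rfl⟩ := (isRoot_iff hp cs _).1 (hSr a ha)
        have hq' : q < 72 := hq
        have h36 : 36 ≤ q := by
          by_contra hlt'
          obtain ⟨k, hk⟩ := neg_lt q (by omega)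
          exact absurd (h0 k) (not_le.2 hk)
        obtain ⟨i, hi⟩ := row_all r hr q hq' h36 ((hS q hq').1 ha)
        exact ⟨i, hi.imp (fun h => by rw [h]) (Or.imp (fun h => by rw [h]) fun h => by rw [h])⟩
      ort := ort
      ort' := ort'
      one := fun i => ⟨(one (rb i) (rc i) (rd i) (bcd i)).1, (one (rb i) (rc i) (rd i) (bcd i)).2,
        (one (rb i) (ru i) (rv i) (buv i)).1, (one (rb i) (ru i) (rv i) (buv i)).2⟩
      uni := by
        intro i x hx h1 h0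
        obtain ⟨q, hq, rfl⟩ := (isRoot_iff hp cs _).1 hx
        have hq' : q < 72 := hq
        rw [cpr_q hp cs hq' (hlt i).1] at h1
        have := row_uni r hr i q hq' h1 fun j hj => by rw [← cpr_q hp cs hq' (hlt j).1]; exact h0 j hj
        exact this.imp (fun h => by rw [h]) (Or.imp (fun h => by rw [h]) (Or.imp (fun h => by rw [h]) fun h => by rw [h]))
      gen := by
        intro N hN hu
        have hcN : ∀ i, vec chevE6 6 (gi r.c i) ∈ N := fun i => hN ((hS _ (hlt i).2.1).2 (hmem i).2.1)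
        have hdN : ∀ i, vec chevE6 6 (gi r.d i) ∈ N := fun i => hN ((hS _ (hlt i).2.2.1).2 (hmem i).2.2.1)
        have hk : ∀ k : Fin 6, vec chevE6 6 (chevE6.simple k) ∈ N := by
          intro k
          have e : vec chevE6 6 (chevE6.simple k) = gg (r.g.getD k []) 0 • vec chevE6 6 (gi r.u 0) +
              (gg (r.g.getD k []) 1 • vec chevE6 6 (gi r.c 0) + gg (r.g.getD k []) 2 • vec chevE6 6 (gi r.d 0) +
              gg (r.g.getD k []) 3 • vec chevE6 6 (gi r.c 1) + gg (r.g.getD k []) 4 • vec chevE6 6 (gi r.d 1) +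
              gg (r.g.getD k []) 5 • vec chevE6 6 (gi r.c 2) + gg (r.g.getD k []) 6 • vec chevE6 6 (gi r.d 2)) :=
            funext fun j => row_gen r hr k j
          rw [e]
          exact add_mem (zsmul_mem hu _) (add_mem (add_mem (add_mem (add_mem (add_mem (zsmul_mem (hcN 0) _)
            (zsmul_mem (hdN 0) _)) (zsmul_mem (hcN 1) _)) (zsmul_mem (hdN 1) _)) (zsmul_mem (hcN 2) _))
            (zsmul_mem (hdN 2) _))
        rw [eq_top_iff]
        intro x _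
        rw [← Finset.univ_sum_single x]
        refine sum_mem fun k _ => ?_
        have e2 : (Pi.single k (x k) : Fin 6 → ℤ) = x k • vec chevE6 6 (chevE6.simple k) := by
          rw [vec_simple hp k]
          funext j
          by_cases hj : j = k
          · subst hj
            rw [Pi.single_eq_same, Pi.smul_apply, sr_self, smul_eq_mul, mul_one]
          · rw [Pi.single_eq_of_ne hj, Pi.smul_apply, sr_ne hj, smul_zero]
        rw [e2]
        exact zsmul_mem (hk k) _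
      three := by
        have hcN : ∀ i, vec chevE6 6 (gi r.c i) ∈ AddSubgroup.closure S := fun i =>
          AddSubgroup.subset_closure ((hS _ (hlt i).2.1).2 (hmem i).2.1)
        have hdN : ∀ i, vec chevE6 6 (gi r.d i) ∈ AddSubgroup.closure S := fun i =>
          AddSubgroup.subset_closure ((hS _ (hlt i).2.2.1).2 (hmem i).2.2.1)
        have e : (3 : ℤ) • vec chevE6 6 (gi r.u 0) = gg r.t 0 • vec chevE6 6 (gi r.c 0) +
            gg r.t 1 • vec chevE6 6 (gi r.d 0) + gg r.t 2 • vec chevE6 6 (gi r.c 1) +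
            gg r.t 3 • vec chevE6 6 (gi r.d 1) + gg r.t 4 • vec chevE6 6 (gi r.c 2) +
            gg r.t 5 • vec chevE6 6 (gi r.d 2) := funext fun j => row_three r hr j
        change (3 : ℤ) • vec chevE6 6 (gi r.u 0) ∈ _
        rw [e]
        exact add_mem (add_mem (add_mem (add_mem (add_mem (zsmul_mem (hcN 0) _)
          (zsmul_mem (hdN 0) _)) (zsmul_mem (hcN 1) _)) (zsmul_mem (hdN 1) _)) (zsmul_mem (hcN 2) _))
          (zsmul_mem (hdN 2) _) }

/-- **Box A.** -/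
theorem exists_tri {k : Type*} [Field k] (ψ : (Fin 6 → ℤ) → k) (h0 : ψ 0 = 1)
    (hadd : ∀ x y, ψ (x + y) = ψ x * ψ y) (h3 : ∀ x, ψ x ^ 3 = 1) {S : Set (Fin 6 → ℤ)}
    (hS : ∀ a, a ∈ S ↔ IsRoot cs hp.isCartan a ∧ ψ a = 1) (hcard : Nat.card S = 18)
    {θ : (Fin 6 → ℤ) ≃+ (Fin 6 → ℤ)} (hroot : ∀ a, IsRoot cs hp.isCartan (θ a) ↔ IsRoot cs hp.isCartan a)
    (hmem : ∀ a, θ a ∈ S ↔ a ∈ S) (hpos : ∀ a ∈ S, 0 ≤ a → 0 ≤ θ a)
    (hnf : ¬ ∃ β ∈ S, 0 ≤ β ∧ θ β = β ∧ ∀ a ∈ S, 0 ≤ a → ¬ IsRoot cs hp.isCartan (β + a)) :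
    ∃ b c d u v, Cfsg.Agent.H338.RG.Tri cs hp.isCartan S θ b c d u v := by
  obtain ⟨r, hr, hr'⟩ := exists_row hp cs ψ h0 hadd h3 hS hcard
  have D := dat_of_row hp cs hr (fun a ha => ((hS a).1 ha).1) (fun a ha => by
    obtain ⟨h1, h2⟩ := (hS a).1 ha
    refine (hS _).2 ⟨h1.neg, ?_⟩
    have h4 := hadd a (-a)
    rw [add_neg_cancel, h0, h2, one_mul] at h4
    exact h4.symm) hr'
  exact ⟨_, _, _, _, _, D.tri (sl6 hp cs) hroot hmem hpos hnf⟩

end Cfsg.Agent.H194.RG
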